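/-
Project NP4 (S4131): if `p²` divides no class size of an element of prime-power order prime to the smallest prime `p`,
the group is `p`-nilpotent.  Definitions and steps.
-/
import Cfsg.Agent.SQF.Defs
import Cfsg.Agent.Grp.PNilp
import Cfsg.Agent.Loc.PConstr

set_option autoImplicit false

namespace CL.NP4

open Cfsg Subgroup CL.Grp CL.Loc CL.Even CL.Sqf

universe u

section defs
variable {G : Type*} [Group G]

/-- the order is a power of a prime other than `p` -/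
def Pp (p : ℕ) (x : G) : Prop := ∃ r k : ℕ, r.Prime ∧ r ≠ p ∧ orderOf x = r ^ k

/-- the hypothesis of the theorem -/
def Hyp (p : ℕ) (G : Type*) [Group G] : Prop := ∀ x : G, Pp p x → ¬ p ^ 2 ∣ (centralizer ({x} : Set G)).index

/-- every involutory automorphism fixing `x` fixes two elements of odd order with even product -/
def Gd (L : Type*) [Group L] : Prop := ∃ x : L, OddP x ∧ ∀ φ : MulAut L, (∀ g, φ (φ g) = g) → φ x = x →
  ∃ a b : L, φ a = a ∧ φ b = b ∧ Odd (orderOf a) ∧ Odd (orderOf b) ∧ Even (orderOf (a * b))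

/-- the local configuration: `R` is a normal `p`-subgroup of the ambient group -/
structure Lc (p : ℕ) (R : Subgroup G) : Prop where
  nrm : R.Normal
  pg : IsPGroup p R
  ih : ∀ R' : Subgroup G, IsPGroup p R' → R < R' → HasNormalPComplement p 𝒞(R')
  br : ∀ x ∈ 𝒞(R), Pp p x → ∃ R' : Subgroup G, IsPGroup p R' ∧ R < R' ∧ x ∈ 𝒞(R')

theorem pp_two {x : G} : Pp 2 x ↔ OddP x := Iff.rfl

theorem gd_of_good (h : Good G) : Gd G := let ⟨x, a, _, c⟩ := h; ⟨x, a, c⟩

theorem Gd.congr {H : Type*} [Group H] (e : G ≃* H) (h : Gd G) : Gd H := by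
  obtain ⟨x, ⟨r, k, a, b, c⟩, hφ⟩ := h
  refine ⟨e x, ⟨r, k, a, b, by rw [MulEquiv.orderOf_eq, c]⟩, fun φ h1 h2 => ?_⟩
  obtain ⟨p, q, h3, h4, h5, h6, h7⟩ := hφ (e.trans (φ.trans e.symm)) (fun g => by simp [h1]) (by simp [h2])
  refine ⟨e p, e q, ?_, ?_, by rwa [MulEquiv.orderOf_eq], by rwa [MulEquiv.orderOf_eq], ?_⟩
  · simpa using congrArg e h3
  · simpa using congrArg e h4
  · rwa [← map_mul, MulEquiv.orderOf_eq]

/-- elementwise form of `p`-nilpotence of a subgroup -/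
theorem npc_iff [Finite G] {p : ℕ} [Fact p.Prime] {X : Subgroup G} : HasNormalPComplement p X ↔
    ∀ a ∈ X, ∀ b ∈ X, (orderOf a).Coprime p → (orderOf b).Coprime p → (orderOf (a * b)).Coprime p := by
  rw [hasNormalPComplement_iff_mul]
  exact ⟨fun h a ha b hb h1 h2 => by simpa using h ⟨a, ha⟩ ⟨b, hb⟩ (by simpa using h1) (by simpa using h2),
    fun h a b h1 h2 => by
      rw [← Subgroup.orderOf_coe]; exact h a a.2 b b.2 (by simpa using h1) (by simpa using h2)⟩

end defs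

/-! ### the jobs -/

def BASE : Prop := ∀ (G : Type u) [Group G] [Finite G] (p : ℕ) [Fact p.Prime] (R : Subgroup G),
  (∀ r : ℕ, r.Prime → r ∣ Nat.card G → p ≤ r) → IsPGroup p R → ¬ p ^ 2 * Nat.card R ∣ Nat.card G →
  HasNormalPComplement p 𝒞(R)

def LOC : Prop := ∀ (G : Type u) [Group G] [Finite G] (p : ℕ) [Fact p.Prime] (R : Subgroup G), Hyp p G →
  IsPGroup p R → p ^ 2 * Nat.card R ∣ Nat.card G →
  (∀ R' : Subgroup G, IsPGroup p R' → Nat.card R < Nat.card R' → HasNormalPComplement p 𝒞(R')) →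
  Lc p (R.subgroupOf 𝒩(R)) ∧ (HasNormalPComplement p 𝒞(R.subgroupOf 𝒩(R)) → HasNormalPComplement p 𝒞(R))

def QUO : Prop := ∀ (G : Type u) [Group G] [Finite G] (p : ℕ) [Fact p.Prime] (R : Subgroup G), Lc p R →
  Lc p (R.map (QuotientGroup.mk' (pPrimeCore p G))) ∧
    (HasNormalPComplement p 𝒞(R.map (QuotientGroup.mk' (pPrimeCore p G))) → HasNormalPComplement p 𝒞(R))

def STEP : Prop := ∀ (G : Type u) [Group G] [Finite G] (p : ℕ) [Fact p.Prime] (R : Subgroup G), Lc p R →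
  pPrimeCore p G = ⊥ → IsPConstrained p G → HasNormalPComplement p 𝒞(R)

def SIMP : Prop := ∀ (L : Type u) [Group L] [Finite L] [IsSimpleGroup L], ¬ IsMulCommutative L →
  (∀ t : L, orderOf t = 2 → HasNormalPComplement 2 (centralizer ({t} : Set L))) → Gd L

def CORE : Prop := ∀ (W : Type u) [Group W] [Finite W] (K : Subgroup W), K.Normal →
  (∀ h : W, orderOf h = 2 → HasNormalPComplement 2 (K ⊓ centralizer {h} : Subgroup W)) →
  (∀ x ∈ K, OddP x → ∃ h : W, orderOf h = 2 ∧ h * x = x * h) →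
  (∀ A : Subgroup W, A.Normal → A ≤ K → IsPGroup 2 A ∨ Odd (Nat.card A) → A = ⊥) → K = ⊥

def JCORE : Prop := SIMP.{u} → CORE.{u}

def RED : Prop := ∀ (G : Type u) [Group G] [Finite G] (R : Subgroup G), Lc 2 R → pPrimeCore 2 G = ⊥ →
  IsPConstrained 2 G ∨ 𝒞(R) ≤ R

def JRED : Prop := CORE.{u} → RED.{u}

def CITZ : Prop := ∀ (L : Type) [Group L] [Finite L],
  (∀ t : L, orderOf t = 2 → IsPGroup 2 (centralizer ({t} : Set L))) → ¬ IsPGroup 2 L →
  (∀ S : Sylow 2 L, ∃ E : Subgroup L, 8 ≤ Nat.card E ∧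
    ∀ s, s ∈ E ↔ s ∈ (S : Subgroup L) ∧ (∀ t ∈ (S : Subgroup L), t * s = s * t) ∧ s * s = 1) → Gd L

def L34 : Prop := ∀ (F : Type) [Field F] [Fintype F], Fintype.card F = 4 →
  Gd (Matrix.ProjectiveSpecialLinearGroup (Fin 3) F)

def L2E : Prop := ∀ (F : Type) [Field F] [Fintype F], 3 < Fintype.card F →
  Gd (Matrix.ProjectiveSpecialLinearGroup (Fin 2) F)

def JL2E : Prop := CITZ → L2E

def SZG : Prop := ∀ (F : Type) [Field F] [Fintype F] (m : ℕ), 1 ≤ m → Fintype.card F = 2 ^ (2 * m + 1) →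
  Gd (Lie.Sz F (2 ^ (m + 1)))

def JSZG : Prop := CITZ → SZG

end CL.NP4
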