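/-
Project NP4 (S4131): the start of the induction.
-/
import Cfsg.Agent.NP4.Defs

set_option autoImplicit false

namespace CL.NP4

open Cfsg Subgroup CL.Grp CL.Loc CL.Even CL.Sqf

universe u

theorem BASEx.small {X : Type*} [Group X] [Finite X] {p : ℕ} [hp : Fact p.Prime]
    (h1 : ∀ r : ℕ, r.Prime → r ∣ Nat.card X → p ≤ r) (h2 : ¬ p ^ 2 ∣ Nat.card X) : HasNormalPComplement p X := by
  by_cases h : p ∣ Nat.card X
  swap
  · exact hasNormalPComplement_of_not_dvd h
  obtain ⟨P⟩ : Nonempty (Sylow p X) := inferInstance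
  obtain ⟨k, hk⟩ := P.isPGroup'.exists_card_eq
  have k1 : k ≤ 1 := by_contra fun e => h2 ((pow_dvd_pow p (by omega)).trans (hk ▸ card_subgroup_dvd_card P.1))
  refine hasNormalPComplement_of_normalizer_le_centralizer P (IsCyclic.normalizer_le_centralizer ?_
    (isCyclic_of_card_dvd_prime (p := p) (hk ▸ (pow_dvd_pow p k1).trans (pow_one p).dvd)))
  exact le_antisymm (Nat.minFac_le_of_dvd hp.out.two_le h) (h1 _ (Nat.minFac_prime fun e =>
    hp.out.not_dvd_one (e ▸ h)) (Nat.minFac_dvd _))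

theorem base : BASE.{u} := by
  intro G _ _ p _ R h1 _ h2
  have z : R.subgroupOf 𝒞(R) ≤ center _ := fun a ha => mem_center_iff.2 fun b => Subtype.ext (b.2 a ha).symm
  have : (R.subgroupOf 𝒞(R)).Normal := ⟨fun a ha g => by rwa [mem_center_iff.1 (z ha) g, mul_inv_cancel_right]⟩
  have e : Nat.card R * Nat.card (𝒞(R) ⧸ R.subgroupOf 𝒞(R)) ∣ Nat.card G := by
    rw [show Nat.card (𝒞(R) ⧸ R.subgroupOf 𝒞(R)) = R.relIndex 𝒞(R) from rfl,
      ← relIndex_sup_of_le_normalizer (centralizer_le_normalizer _), card_mul_relIndex le_sup_right]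
    exact card_subgroup_dvd_card _
  exact hasNormalPComplement_of_quotient_central z (BASEx.small (fun r hr hd => h1 r hr ((hd.mul_left _).trans e))
    fun d => h2 (mul_comm (p ^ 2) _ ▸ (mul_dvd_mul_left _ d).trans e))

end CL.NP4
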