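/-
Project NP4, job CITZ: groups whose involutions have 2-groups as centralizers and whose Sylow 2-subgroups have
at least eight central elements of order at most 2.
-/
import Cfsg.Agent.NP4.Defs

set_option autoImplicit false

namespace CL.NP4

open Cfsg Subgroup CL.Grp CL.Loc CL.Even CL.Sqf

universe u

namespace CitzAux

open scoped Pointwise

variable {L : Type*} [Group L] [Finite L]

/-- an element of odd order commuting with an involution is trivial -/
theorem triv (hc : ∀ t : L, orderOf t = 2 → IsPGroup 2 (centralizer ({t} : Set L))) {e w : L} (he : e * e = 1)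
    (he1 : e ≠ 1) (hw : Odd (orderOf w)) (hew : e * w = w * e) : w = 1 := by
  have ho : orderOf e = 2 := orderOf_eq_prime (by rw [pow_two, he]) he1
  have hm : w ∈ centralizer ({e} : Set L) := mem_centralizer_singleton_iff.2 hew.symm
  obtain ⟨k, hk⟩ := hc e ho ⟨w, hm⟩
  have hk' : w ^ 2 ^ k = 1 := by simpa using congrArg Subtype.val hk
  have hd : orderOf w ∣ 2 ^ k := orderOf_dvd_of_pow_eq_one hk'
  have hco : (orderOf w).Coprime (2 ^ k) := Nat.Coprime.pow_right _ (Nat.coprime_two_right.2 hw)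
  exact orderOf_eq_one_iff.1 (hco.eq_one_of_dvd hd)

/-- every fixed involution inverts `x` -/
theorem inv (hc : ∀ t : L, orderOf t = 2 → IsPGroup 2 (centralizer ({t} : Set L))) (φ : MulAut L)
    (hφ : ∀ a b : L, φ a = a → φ b = b → Odd (orderOf a) → Odd (orderOf b) → Odd (orderOf (a * b)))
    {x d : L} (hx : φ x = x) (hxo : Odd (orderOf x)) (hd : φ d = d) (hd2 : d * d = 1) (hd1 : d ≠ 1) :
    x * d * (x * d) = 1 := by
  have hdi : d⁻¹ = d := inv_eq_of_mul_eq_one_right hd2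
  have hw : Odd (orderOf (x * d * (x * d))) := by
    have h1 : x * d * (x * d) = x * (d * x * d⁻¹) := by rw [hdi]; group
    rw [h1]
    refine hφ _ _ hx (by simp [hx, hd]) hxo ?_
    have : orderOf (d * x * d⁻¹) = orderOf x := by
      simpa using (MulAut.conj d).orderOf_eq x
    rwa [this]
  set m := orderOf (x * d * (x * d)) with hm
  have he : (x * d) ^ m * (x * d) ^ m = 1 := by
    rw [← (Commute.refl (x * d)).mul_pow, hm, pow_orderOf_eq_one]
  by_cases he1 : (x * d) ^ m = 1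
  · exfalso
    have h2 : Odd (orderOf (x * d)) := hw.of_dvd_nat (orderOf_dvd_of_pow_eq_one he1)
    have h3 := hφ x⁻¹ (x * d) (by simp [hx]) (by simp [hx, hd]) (by rwa [orderOf_inv]) h2
    have ho : orderOf d = 2 := orderOf_eq_prime (by rw [pow_two, hd2]) hd1
    rw [inv_mul_cancel_left, ho] at h3
    exact absurd h3 (by decide)
  · refine triv hc he he1 hw ?_
    exact (((Commute.refl (x * d)).mul_right (Commute.refl (x * d))).pow_left m).eq

/-- an involutory automorphism fixes a Sylow 2-subgroup -/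
theorem syl (φ : MulAut L) (hφ : ∀ g, φ (φ g) = g) :
    ∃ S : Sylow 2 L, ∀ g ∈ (S : Subgroup L), φ g ∈ (S : Subgroup L) := by
  have h2 : φ ^ 2 = 1 := by ext g; simp [pow_two, hφ]
  have hp : IsPGroup 2 (zpowers φ) := by
    rintro ⟨_, k, rfl⟩
    refine ⟨1, Subtype.ext ?_⟩
    show (φ ^ k) ^ 2 ^ 1 = 1
    rw [pow_one, ← zpow_natCast, ← zpow_mul, mul_comm, zpow_mul, zpow_natCast, h2, one_zpow]
  obtain ⟨S, hS⟩ := hp.nonempty_fixed_point_of_prime_not_dvd_card (Sylow 2 L) (not_dvd_card_sylow 2 L)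
  have h1 : φ • S = S := hS ⟨φ, mem_zpowers φ⟩
  refine ⟨S, fun g hg => ?_⟩
  have h3 : φ • g ∈ φ • (S : Subgroup L) := smul_mem_pointwise_smul g φ _ hg
  rw [← Sylow.pointwise_smul_def, h1] at h3
  exact h3

/-- a group with more than two elements has two different nontrivial elements -/
theorem two_elts {K : Type*} [Group K] [Finite K] (h : 2 < Nat.card K) : ∃ a b : K, a ≠ 1 ∧ b ≠ 1 ∧ a ≠ b := by
  have := Fintype.ofFinite K
  rw [Nat.card_eq_fintype_card, Fintype.two_lt_card_iff] at h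
  obtain ⟨a, b, c, h1, h2, h3⟩ := h
  refine ⟨a⁻¹ * b, a⁻¹ * c, ?_, ?_, ?_⟩
  · rwa [Ne, inv_mul_eq_one]
  · rwa [Ne, inv_mul_eq_one]
  · rwa [Ne, mul_right_inj]

/-- two fixed involutions in an invariant elementary abelian group of order at least 8 -/
theorem fix (φ : MulAut L) (hφ : ∀ g, φ (φ g) = g) (E : Subgroup L) (h8 : 8 ≤ Nat.card E)
    (hE : ∀ e ∈ E, φ e ∈ E) (hc : ∀ a ∈ E, ∀ b ∈ E, a * b = b * a) (h2 : ∀ a ∈ E, a * a = 1) :
    ∃ a ∈ E, ∃ b ∈ E, φ a = a ∧ φ b = b ∧ a ≠ 1 ∧ b ≠ 1 ∧ a ≠ b := by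
  let ψ : E →* E :=
    { toFun := fun e => ⟨e * φ e, E.mul_mem e.2 (hE _ e.2)⟩
      map_one' := Subtype.ext (by simp)
      map_mul' := fun a b => Subtype.ext (by
        show (a : L) * b * φ (a * b) = a * φ a * (b * φ b)
        rw [map_mul, mul_assoc, mul_assoc, ← mul_assoc (b : L), hc b b.2 _ (hE _ a.2), mul_assoc]) }
  have hk : ∀ e ∈ ψ.ker, φ e = e := by
    intro e he
    have h3 : (e : L) * φ e = 1 := congrArg Subtype.val he
    exact mul_left_cancel (h3.trans (h2 e e.2).symm)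
  have hr : ∀ e ∈ ψ.range, φ e = e := by
    rintro _ ⟨e, rfl⟩
    show φ (e * φ e) = e * φ e
    rw [map_mul, hφ, hc e e.2 _ (hE _ e.2)]
  have key : ∀ K : Subgroup E, (∀ e ∈ K, φ e = e) → 2 < Nat.card K →
      ∃ a ∈ E, ∃ b ∈ E, φ a = a ∧ φ b = b ∧ a ≠ 1 ∧ b ≠ 1 ∧ a ≠ b := by
    intro K hK h3
    obtain ⟨a, b, h4, h5, h6⟩ := two_elts h3
    exact ⟨a.1.1, a.1.2, b.1.1, b.1.2, hK _ a.2, hK _ b.2, fun h => h4 (Subtype.ext (Subtype.ext h)),
      fun h => h5 (Subtype.ext (Subtype.ext h)), fun h => h6 (Subtype.ext (Subtype.ext h))⟩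
  have hcard := ψ.ker.card_mul_index
  rw [index_ker] at hcard
  by_cases h3 : 2 < Nat.card ψ.ker
  · exact key _ hk h3
  · refine key _ hr ?_
    by_contra h4
    have : Nat.card ψ.ker * Nat.card ψ.range ≤ 2 * 2 := Nat.mul_le_mul (not_lt.1 h3) (not_lt.1 h4)
    omega

end CitzAux

open CitzAux in
theorem citz : CITZ := by
  intro L _ _ hc hn hS
  obtain ⟨r, hr, hr2, hrd⟩ : ∃ r : ℕ, r.Prime ∧ r ≠ 2 ∧ r ∣ Nat.card L := by
    by_contra h
    apply hn
    refine IsPGroup.iff_card.2 ⟨_, Nat.eq_prime_pow_of_unique_prime_dvd Nat.card_pos.ne' ?_⟩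
    intro d hd hdd
    by_contra h2
    exact h ⟨d, hd, h2, hdd⟩
  haveI := Fact.mk hr
  obtain ⟨x, hx⟩ := exists_prime_orderOf_dvd_card' r hrd
  have hxo : Odd (orderOf x) := hx ▸ hr.odd_of_ne_two hr2
  refine ⟨x, ⟨r, 1, hr, hr2, by rw [hx, pow_one]⟩, fun φ hφ hφx => ?_⟩
  by_contra hne
  have hodd : ∀ a b : L, φ a = a → φ b = b → Odd (orderOf a) → Odd (orderOf b) → Odd (orderOf (a * b)) := by
    intro a b h1 h2 h3 h4
    by_contra h5
    exact hne ⟨a, b, h1, h2, h3, h4, Nat.not_odd_iff_even.1 h5⟩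
  obtain ⟨S, hSφ⟩ := syl φ hφ
  obtain ⟨E, h8, hE⟩ := hS S
  have hEφ : ∀ e ∈ E, φ e ∈ E := by
    intro e he
    obtain ⟨h1, h2, h3⟩ := (hE e).1 he
    refine (hE _).2 ⟨hSφ e h1, fun t ht => ?_, by rw [← map_mul, h3, map_one]⟩
    rw [← hφ t, ← map_mul, h2 _ (hSφ t ht), map_mul]
  have hEc : ∀ a ∈ E, ∀ b ∈ E, a * b = b * a := fun a ha b hb => ((hE b).1 hb).2.1 a ((hE a).1 ha).1
  have hE2 : ∀ a ∈ E, a * a = 1 := fun a ha => ((hE a).1 ha).2.2
  obtain ⟨a, ha, b, hb, h1, h2, h3, h4, h5⟩ := fix φ hφ E h8 hEφ hEc hE2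
  have ia := inv hc φ hodd hφx hxo h1 (hE2 a ha) h3
  have ib := inv hc φ hodd hφx hxo h2 (hE2 b hb) h4
  have hab : a * b ≠ 1 := fun h => h5 (mul_right_cancel (h.trans (hE2 b hb).symm))
  have hx1 : x = 1 := by
    refine triv hc (hE2 _ (E.mul_mem ha hb)) hab hxo ?_
    have ja : a * x = x⁻¹ * a := by
      have : a * x * a = x⁻¹ := eq_inv_of_mul_eq_one_right (by rw [← ia]; group)
      rw [← this, mul_assoc, hE2 a ha, mul_one]
    have jb : b * x = x⁻¹ * b := by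
      have : b * x * b = x⁻¹ := eq_inv_of_mul_eq_one_right (by rw [← ib]; group)
      rw [← this, mul_assoc, hE2 b hb, mul_one]
    have ja' : a * x⁻¹ = x * a := by
      calc a * x⁻¹ = x * (x⁻¹ * a) * x⁻¹ := by group
        _ = x * a := by rw [← ja]; group
    rw [mul_assoc, jb, ← mul_assoc, ja', mul_assoc]
  rw [hx1, orderOf_one] at hx
  exact hr.one_lt.ne hx

end CL.NP4
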