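/-
Project NP4 (S4131): the core lemma.
-/
import Cfsg.Agent.NP4.Defs
import Cfsg.Agent.Cit.CentBase

set_option autoImplicit false

namespace CL.NP4

open Cfsg Subgroup CL.Grp CL.Loc CL.Even CL.Sqf

universe u

namespace CoreJ

variable {W : Type u} [Group W] [Finite W]

/-- normalised by all its conjugates -/
def Pn (L : Subgroup W) : Prop := ∀ g : W, cj g L ≤ 𝒩(L)

omit [Finite W] in
theorem Pn.conj {L : Subgroup W} (h : Pn L) (g k : W) : cj k L ≤ 𝒩(cj g L) := by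
  rw [← cj_norm]
  have : cj k L = cj g (cj (g⁻¹ * k) L) := by rw [← cj_mul]; simp
  rw [this]
  exact cj_mono g (h _)

theorem exists_min {K : Subgroup W} (hK : K.Normal) (h0 : K ≠ ⊥) : ∃ L : Subgroup W, L ≠ ⊥ ∧ L ≤ K ∧ Pn L ∧
    ∀ M : Subgroup W, M ≤ L → Pn M → M = ⊥ ∨ M = L := by
  obtain ⟨L, ⟨h1, h2, h3⟩, hm⟩ := (wellFounded_lt (α := Subgroup W)).has_min
    {L : Subgroup W | L ≠ ⊥ ∧ L ≤ K ∧ Pn L} ⟨K, h0, le_rfl, fun g => by
      rw [normalizer_eq_top_iff.2 hK]; exact le_top⟩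
  refine ⟨L, h1, h2, h3, fun M hM hP => ?_⟩
  by_cases e : M = ⊥
  · exact Or.inl e
  · exact Or.inr (eq_of_le_of_not_lt hM (hm M ⟨e, hM.trans h2, hP⟩))

theorem dich {L : Subgroup W} (hP : Pn L) (hm : ∀ M : Subgroup W, M ≤ L → Pn M → M = ⊥ ∨ M = L) (g : W) :
    cj g L = L ∨ (L ⊓ cj g L = ⊥ ∧ cj g L ≤ 𝒞(L)) := by
  have hL : L ≤ 𝒩(cj g L) := (cj_one L).ge.trans (hP.conj g 1)
  rcases hm (L ⊓ cj g L) inf_le_left (fun k => le_norm_inf ((cj_mono k inf_le_left).trans (hP k))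
    ((cj_mono k inf_le_left).trans (hP.conj g k))) with e | e
  · refine Or.inr ⟨e, commutator_eq_bot_iff'.1 (le_bot_iff.1 (e ▸ le_inf ?_ ?_))⟩
    · exact commutator_le_of_le_norm (hP g)
    · exact commutator_le_of_le_norm' hL
  · exact Or.inl (eq_of_le_of_card_ge (inf_eq_left.1 e) (card_cj g L).le).symm

theorem simple {L : Subgroup W} (h0 : L ≠ ⊥) (hP : Pn L)
    (hm : ∀ M : Subgroup W, M ≤ L → Pn M → M = ⊥ ∨ M = L) : IsSimpleGroup L := by
  haveI : Nontrivial L := (nontrivial_iff_ne_bot L).2 h0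
  refine ⟨fun M hM => ?_⟩
  have h1 : M.map L.subtype ≤ L := map_subtype_le M
  have h2 : L ≤ 𝒩(M.map L.subtype) := by
    refine le_norm_of_cj_le fun g hg => ?_
    intro x hx
    obtain ⟨y, hy, e⟩ := mem_cj.1 hx
    refine ⟨⟨g, hg⟩ * y * (⟨g, hg⟩ : L)⁻¹, hM.conj_mem y hy _, ?_⟩
    have e' : (y : W) = g⁻¹ * x * g := e
    show g * (y : W) * g⁻¹ = x
    rw [e']; group
  have h3 : Pn (M.map L.subtype) := fun k => by
    rcases dich hP hm k with e | e
    · exact (cj_mono k h1).trans (e.le.trans h2)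
    · exact (cj_mono k h1).trans (e.2.trans ((cent_mono h1).trans (cent_le_norm _)))
  rcases hm (M.map L.subtype) h1 h3 with e | e
  · exact Or.inl ((map_eq_bot_iff_of_injective M L.subtype_injective).1 e)
  · refine Or.inr (eq_top_iff.2 fun x _ => ?_)
    obtain ⟨y, hy, e'⟩ : (x : W) ∈ M.map L.subtype := by rw [e]; exact x.2
    exact (Subtype.ext e' : y = x) ▸ hy

theorem noncomm {K L : Subgroup W} (hK : K.Normal) (h0 : L ≠ ⊥) (hLK : L ≤ K) (hP : Pn L)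
    (hm : ∀ M : Subgroup W, M ≤ L → Pn M → M = ⊥ ∨ M = L)
    (hA : ∀ A : Subgroup W, A.Normal → A ≤ K → IsPGroup 2 A ∨ Odd (Nat.card A) → A = ⊥) :
    ¬ IsMulCommutative L := by
  intro hc
  have hLL : L ≤ 𝒞(L) := fun x hx y hy =>
    congrArg Subtype.val (hc.is_comm.comm (⟨y, hy⟩ : L) ⟨x, hx⟩)
  have h1 : ∀ g : W, cj g L ≤ 𝒞(L) := fun g => (dich hP hm g).elim (fun e => e.le.trans hLL) fun e => e.2
  have h2 : ∀ g k : W, cj k L ≤ 𝒞(cj g L) := fun g k => by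
    rw [← cj_cent]
    have : cj k L = cj g (cj (g⁻¹ * k) L) := by rw [← cj_mul]; simp
    rw [this]
    exact cj_mono g (h1 _)
  set N : Subgroup W := ⨆ g : W, cj g L with hN
  have h3 : N ≤ 𝒞(N) := le_cent_iSup fun g => iSup_le fun k => h2 g k
  have h4 : ∀ g : W, ∀ x ∈ N, g * x * g⁻¹ ∈ N := fun g x hx => by
    have : N ≤ cj g⁻¹ N := iSup_le fun k => by
      rw [← cj_le_iff, ← cj_mul]; exact le_iSup (fun g : W => cj g L) (g * k)
    simpa using mem_cj.1 (this hx)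
  have h5 : N ≤ K := iSup_le fun k => cj_le_of_le hLK (by rw [normalizer_eq_top_iff.2 hK]; trivial)
  obtain ⟨r, hr, hd⟩ := Nat.exists_prime_and_dvd (n := Nat.card L) (fun e => h0 (card_eq_one.1 e))
  haveI := Fact.mk hr
  obtain ⟨x, hx⟩ := exists_prime_orderOf_dvd_card' r hd
  let A : Subgroup W :=
    { carrier := {y | y ∈ N ∧ y ^ r = 1}
      one_mem' := ⟨N.one_mem, one_pow r⟩
      mul_mem' := fun {a b} ha hb => ⟨N.mul_mem ha.1 hb.1, by
        have : Commute a b := comm_of_mem (h3 hb.1) ha.1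
        rw [this.mul_pow, ha.2, hb.2, one_mul]⟩
      inv_mem' := fun {a} ha => ⟨N.inv_mem ha.1, by rw [inv_pow, ha.2, inv_one]⟩ }
  have hp : IsPGroup r A := fun y => ⟨1, Subtype.ext (by simpa using y.2.2)⟩
  have hb : A = ⊥ := by
    refine hA A ⟨fun y hy g => ⟨h4 g y hy.1, by rw [conj_pow, hy.2]; simp⟩⟩ (fun y hy => h5 hy.1) ?_
    rcases hr.eq_two_or_odd' with e | e
    · exact Or.inl (e ▸ hp)
    · obtain ⟨k, hk⟩ := hp.exists_card_eq
      exact Or.inr (hk ▸ e.pow)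
  have hxA : (x : W) ∈ A := ⟨le_iSup (fun g : W => cj g L) 1 (by rw [cj_one]; exact x.2), by
    rw [← Subgroup.coe_pow, ← hx, pow_orderOf_eq_one]; rfl⟩
  rw [hb, mem_bot] at hxA
  have : x = 1 := Subtype.ext hxA
  rw [this, orderOf_one] at hx
  exact hr.one_lt.ne hx

theorem npc_of_swap {K L : Subgroup W} (hK : K.Normal) (hLK : L ≤ K) {h : W} (hh : h * h = 1)
    (h1 : L ⊓ cj h L = ⊥) (h2 : cj h L ≤ 𝒞(L))
    (hn : HasNormalPComplement 2 (K ⊓ centralizer {h} : Subgroup W)) : HasNormalPComplement 2 L := by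
  have hi : h⁻¹ = h := inv_eq_of_mul_eq_one_right hh
  have hc : ∀ a ∈ L, ∀ b ∈ L, Commute a (h * b * h⁻¹) := fun a ha b hb => comm_of_mem (h2 (conj_mem_cj h hb)) ha
  have hmem : ∀ a ∈ L, a * (h * a * h⁻¹) ∈ (K ⊓ centralizer {h} : Subgroup W) := fun a ha => by
    refine ⟨K.mul_mem (hLK ha) (hK.conj_mem a (hLK ha) h), mem_centralizer_singleton_iff.2 ?_⟩
    have e := (hc a ha a ha).eq
    calc a * (h * a * h⁻¹) * h = a * h * a := by group
      _ = (h * h) * a * h * a := by rw [hh, one_mul]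
      _ = h * ((h * a * h⁻¹) * a) := by rw [hi]; group
      _ = h * (a * (h * a * h⁻¹)) := by rw [e]
  have hpow : ∀ a ∈ L, ∀ n : ℕ, (a * (h * a * h⁻¹)) ^ n = a ^ n * (h * a ^ n * h⁻¹) := fun a ha n => by
    rw [(hc a ha a ha).mul_pow, conj_pow]
  have hord : ∀ a ∈ L, orderOf (a * (h * a * h⁻¹)) = orderOf a := fun a ha => by
    refine orderOf_eq_orderOf_iff.2 fun n => ?_
    rw [hpow a ha]
    refine ⟨fun e => ?_, fun e => by rw [e]; simp⟩
    have : a ^ n ∈ L ⊓ cj h L := ⟨L.pow_mem ha n, by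
      rw [eq_inv_of_mul_eq_one_left e]
      exact (cj h L).inv_mem (conj_mem_cj h (L.pow_mem ha n))⟩
    rwa [h1, mem_bot] at this
  rw [npc_iff] at hn ⊢
  intro a ha b hb oa ob
  have := hn _ (hmem a ha) _ (hmem b hb) (by rwa [hord a ha]) (by rwa [hord b hb])
  rw [← hord _ (L.mul_mem ha hb)]
  convert this using 2
  have e := (hc b hb a ha).eq
  calc a * b * (h * (a * b) * h⁻¹) = a * (b * (h * a * h⁻¹)) * (h * b * h⁻¹) := by group
    _ = a * (h * a * h⁻¹) * (b * (h * b * h⁻¹)) := by rw [e]; group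

end CoreJ

open CoreJ in
theorem jCore : JCORE.{u} := by
  intro hS W _ _ K hK hn hx hA
  by_contra h0
  obtain ⟨L, hL0, hLK, hP, hm⟩ := exists_min hK h0
  haveI := simple hL0 hP hm
  have hnc := noncomm hK hL0 hLK hP hm hA
  have hnn : ¬ HasNormalPComplement 2 L := fun h =>
    hnc ⟨⟨IsSimpleGroup.comm_iff_isSolvable.2 (CL.Cit.isSolvable_of_npc_two h)⟩⟩
  obtain ⟨x, ⟨r, k, hr, hr2, ho⟩, hφ⟩ := hS L hnc fun t ht => by
    have := hn (t : W) (by rwa [Subgroup.orderOf_coe])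
    rw [npc_iff] at this ⊢
    intro a ha b hb oa ob
    have hm' : ∀ a ∈ centralizer ({t} : Set L), (a : W) ∈ (K ⊓ centralizer {(t : W)} : Subgroup W) := fun a ha =>
      ⟨hLK a.2, mem_centralizer_singleton_iff.2 (congrArg Subtype.val (mem_centralizer_singleton_iff.1 ha))⟩
    rw [← Subgroup.orderOf_coe] at oa ob ⊢
    exact this _ (hm' a ha) _ (hm' b hb) oa ob
  obtain ⟨h, hh, hc⟩ := hx x (hLK x.2) ⟨r, k, hr, hr2, by rwa [Subgroup.orderOf_coe]⟩
  have hh2 : h * h = 1 := by rw [← pow_two, ← hh, pow_orderOf_eq_one]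
  have hN : h ∈ 𝒩(L) := (dich hP hm h).elim cj_eq_iff_mem.1 fun e =>
    (hnn (npc_of_swap hK hLK hh2 e.1 e.2 (hn h hh))).elim
  have hv : ∀ g : L, ((L.normalizerMonoidHom ⟨h, hN⟩ g : L) : W) = h * g * h⁻¹ := fun g => rfl
  obtain ⟨a, b, ha, hb, oa, ob, oab⟩ := hφ (L.normalizerMonoidHom ⟨h, hN⟩) (fun g => Subtype.ext (by
    rw [hv, hv, inv_eq_of_mul_eq_one_right hh2]
    calc h * (h * g * h) * h = (h * h) * g * (h * h) := by group
      _ = g := by rw [hh2]; simp)) (Subtype.ext (by rw [hv, hc]; simp))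
  have hm' : ∀ a : L, L.normalizerMonoidHom ⟨h, hN⟩ a = a → (a : W) ∈ (K ⊓ centralizer {h} : Subgroup W) :=
    fun a ha => ⟨hLK a.2, mem_centralizer_singleton_iff.2 (by
      have := hv a
      rw [ha] at this
      exact (mul_inv_eq_iff_eq_mul.1 this.symm).symm)⟩
  have := npc_iff.1 (hn h hh) _ (hm' a ha) _ (hm' b hb)
    (by rw [Subgroup.orderOf_coe]; exact Nat.coprime_two_right.2 oa)
    (by rw [Subgroup.orderOf_coe]; exact Nat.coprime_two_right.2 ob)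
  rw [← Subgroup.coe_mul, Subgroup.orderOf_coe, Nat.coprime_two_right] at this
  exact (Nat.not_even_iff_odd.2 this) oab

end CL.NP4
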