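/-
Project NP4 (S4131): the group `L₃(4)`.
-/
import Cfsg.Agent.NP4.Defs
import Cfsg.Agent.Cls.SLnCard

set_option autoImplicit false

namespace CL.NP4

open Cfsg Subgroup CL.Grp CL.Loc CL.Even CL.Sqf Matrix

universe u

namespace L34x

theorem inv7 {C : Type*} [Group C] [Finite C] (h : HasNormalPComplement 2 C) (h2 : 2 ∣ Nat.card C) {x : C}
    (ox : orderOf x = 7) (h49 : ¬ 49 ∣ Nat.card C) :
    ∃ d : C, orderOf d = 2 ∧ (d * x * d⁻¹ = x ∨ d * x * d⁻¹ = x⁻¹) := by
  have : Fact (Nat.Prime 7) := ⟨by norm_num⟩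
  have c7 : Nat.card (zpowers x) = 7 := by rw [Nat.card_zpowers, ox]
  obtain ⟨P, hP⟩ := (IsPGroup.of_card (p := 7) (n := 1) c7).exists_le_sylow
  obtain ⟨k, hk⟩ := P.isPGroup'.exists_card_eq
  have k1 : k ≤ 1 := by_contra fun k2 =>
    h49 ((pow_dvd_pow 7 (show 2 ≤ k by omega)).trans (hk ▸ card_subgroup_dvd_card (P : Subgroup C)))
  have e : zpowers x = P := eq_of_le_of_card_ge hP (by rw [hk, c7]; exact Nat.pow_le_pow_right (by norm_num) k1)
  have f := P.normalizer_sup_eq_top' (N := pResidual 2 C)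
    (e ▸ zpowers_le.2 (mem_pResidual_of_coprime (by rw [ox]; norm_num)))
  have c := card_sup_mul_card_inf_of_normal 𝒩((P : Subgroup C)) (pResidual 2 C)
  rw [show 𝒩((P : Subgroup C)) ⊔ pResidual 2 C = ⊤ from f, card_top] at c
  obtain ⟨d, hd⟩ := exists_prime_orderOf_dvd_card' 2 (((Nat.prime_two.dvd_mul).1 (c ▸ h2.mul_right _)).resolve_right
    (hasNormalPComplement_iff_not_dvd_pResidual.1 h))
  have od : orderOf (d : C) = 2 := by rw [Subgroup.orderOf_coe, hd]
  obtain ⟨n, hn⟩ : (d : C) * x * (d : C)⁻¹ ∈ zpowers x := e.ge (conj_mem d.2 (hP (mem_zpowers x)))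
  have dd : (d : C) * d = 1 := by rw [← sq, ← od, pow_orderOf_eq_one]
  have e2 : x ^ (n * n) = x := by
    have hn' : x ^ n = d * x * (d : C)⁻¹ := hn
    rw [_root_.zpow_mul, hn', conj_zpow, hn', show (d : C) * (d * x * (d : C)⁻¹) * (d : C)⁻¹ = d * d * x * ((d : C) * d)⁻¹ by group,
      dd]; simp
  have e3 : (7 : ℤ) ∣ (n - 1) * (n + 1) := by
    have := (orderOf_dvd_iff_zpow_eq_one (x := x) (i := n * n - 1)).2 (by rw [_root_.zpow_sub, e2]; simp)
    rw [ox] at this
    exact (show n * n - 1 = (n - 1) * (n + 1) by ring) ▸ this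
  refine ⟨d, od, ((Int.prime_iff_natAbs_prime.2 (by norm_num) : Prime (7 : ℤ)).dvd_or_dvd e3).imp (fun j => ?_) fun j => ?_⟩
  · have := (orderOf_dvd_iff_zpow_eq_one (x := x)).1 (ox ▸ j : (orderOf x : ℤ) ∣ n - 1)
    rw [_root_.zpow_sub, zpow_one, mul_inv_eq_one] at this
    exact hn.symm.trans this
  · have := (orderOf_dvd_iff_zpow_eq_one (x := x)).1 (ox ▸ j : (orderOf x : ℤ) ∣ n + 1)
    rw [_root_.zpow_add, zpow_one, mul_eq_one_iff_eq_inv] at this
    exact hn.symm.trans this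

def X0 : SpecialLinearGroup (Fin 3) (ZMod 2) := ⟨!![0, 0, 1; 1, 0, 1; 0, 1, 0], by decide⟩
def Y0 : SpecialLinearGroup (Fin 3) (ZMod 2) := ⟨!![1, 1, 0; 0, 0, 1; 1, 0, 0], by decide⟩

theorem X0_7 : X0 ^ 7 = 1 := Subtype.ext (by decide)
theorem X0_Y0 : X0 * Y0 = 1 := Subtype.ext (by decide)

variable {F : Type} [Field F] [CharP F 2]

theorem exX : ∃ X : SpecialLinearGroup (Fin 3) F, X.1 = !![0, 0, 1; 1, 0, 1; 0, 1, 0] ∧ X ^ 7 = 1 ∧
    X⁻¹.1 = !![1, 1, 0; 0, 0, 1; 1, 0, 0] := by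
  let f := SpecialLinearGroup.map (n := Fin 3) (ZMod.castHom (dvd_refl 2) F)
  refine ⟨f X0, ?_, by rw [← map_pow, X0_7, map_one], ?_⟩
  · ext i j
    change ZMod.castHom (dvd_refl 2) F (X0.1 i j) = _
    fin_cases i <;> fin_cases j <;> simp [X0]
  · rw [← map_inv, inv_eq_of_mul_eq_one_right X0_Y0]
    ext i j
    change ZMod.castHom (dvd_refl 2) F (Y0.1 i j) = _
    fin_cases i <;> fin_cases j <;> simp [Y0]

theorem key {X D : SpecialLinearGroup (Fin 3) F} (h1 : X.1 = !![0, 0, 1; 1, 0, 1; 0, 1, 0])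
    (h3 : X⁻¹.1 = !![1, 1, 0; 0, 0, 1; 1, 0, 0]) (hD : D * D ∈ center (SpecialLinearGroup (Fin 3) F))
    (e : D * X * D⁻¹ = X ∨ D * X * D⁻¹ = X⁻¹) : D ∈ center (SpecialLinearGroup (Fin 3) F) := by
  rcases e with e | e
  · have e1 : D.1 * X.1 = X.1 * D.1 := congrArg Subtype.val (mul_inv_eq_iff_eq_mul.1 e : D * X = X * D)
    obtain ⟨r, -, hr⟩ := Matrix.SpecialLinearGroup.mem_center_iff.1 hD
    have g := fun i j => congrFun (congrFun e1 i) j
    have a00 := g 0 0; have a01 := g 0 1; have a10 := g 1 0; have a11 := g 1 1; have a20 := g 2 0; have a21 := g 2 1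
    have b1 := congrFun (congrFun hr 1) 0; have b2 := congrFun (congrFun hr 2) 0
    simp [h1, Matrix.mul_apply, Fin.sum_univ_three] at a00 a01 a10 a11 a20 a21 b1 b2
    have t : (2 : F) = 0 := CharTwo.two_eq_zero
    rw [a11, a10, a00, a20] at b1
    rw [a21, a10, a20] at b2
    have c0 : D 2 0 = 0 := pow_eq_zero_iff (n := 2) (by norm_num) |>.1 (by
      linear_combination -b1 - (D 0 0 * D 1 0 + D 1 0 * D 2 0) * t)
    have c1 : D 1 0 = 0 := pow_eq_zero_iff (n := 2) (by norm_num) |>.1 (by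
      rw [c0] at b2; linear_combination -b2)
    have s : D.1 = scalar (Fin 3) (D 0 0) := by
      ext i j; fin_cases i <;> fin_cases j <;> simp [a00, a01, a10, a11, a20, a21, c0, c1]
    refine mem_center_iff.2 fun g => Subtype.ext ?_
    change g.1 * D.1 = D.1 * g.1
    rw [s]; exact (scalar_commute _ (fun r => Commute.all _ r) _).eq.symm
  · exfalso
    have e1 : (D.1 * X.1 * D⁻¹.1).trace = X⁻¹.1.trace := congrArg (fun M : SpecialLinearGroup (Fin 3) F => M.1.trace) e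
    rw [trace_mul_comm, ← Matrix.mul_assoc, show D⁻¹.1 * D.1 = 1 from congrArg Subtype.val (inv_mul_cancel D),
      Matrix.one_mul, h1, h3] at e1
    simp [trace_fin_three] at e1

end L34x

open L34x in
theorem l34 : L34 := by
  intro F _ _ hF
  classical
  have : CharP F 2 := ringChar.of_eq (FiniteField.even_card_iff_char_two.2 (by rw [hF]))
  have : Fact (Nat.Prime 7) := ⟨by norm_num⟩
  obtain ⟨X, h1, h2, h3⟩ := exX (F := F)
  have cL : Nat.card (ProjectiveSpecialLinearGroup (Fin 3) F) = 20160 := by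
    have := CL.SLn.card_PSL_mul (ι := Fin 3) (F := F)
    rw [CL.SLn.card_SL, hF, Fintype.card_fin] at this
    simp only [Finset.prod_range_succ, Finset.range_zero, Finset.prod_empty, Nat.reduceSub, Nat.reduceGcd, Nat.reducePow,
      Nat.reduceMul, Nat.reduceAdd, Nat.reduceDiv] at this
    omega
  let π : SpecialLinearGroup (Fin 3) F →* ProjectiveSpecialLinearGroup (Fin 3) F := QuotientGroup.mk' _
  have ox : orderOf (π X) = 7 := orderOf_eq_prime (by rw [← map_pow, h2, map_one]) fun e => by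
    obtain ⟨r, -, hr⟩ := Matrix.SpecialLinearGroup.mem_center_iff.1 ((QuotientGroup.eq_one_iff X).1 e)
    have := congrFun (congrFun hr 1) 0
    simp [h1] at this
  refine ⟨π X, ⟨7, 1, by norm_num, by norm_num, ox⟩, fun φ hφ hx => by_contra fun k => ?_⟩
  let C := MonoidHom.eqLocus φ.toMonoidHom (MonoidHom.id _)
  have np : HasNormalPComplement 2 C := npc_iff.2 fun a ha b hb oa ob => (Nat.coprime_two_right.2
    (Nat.not_even_iff_odd.1 fun j => k ⟨a, b, ha, hb, Nat.coprime_two_right.1 oa, Nat.coprime_two_right.1 ob, j⟩))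
  have ev : 2 ∣ Nat.card C := by
    have := Fintype.ofFinite (ProjectiveSpecialLinearGroup (Fin 3) F)
    have m := Equiv.Perm.card_fixedPoints_modEq (f := (fun g => φ g : Function.End _)) (p := 2) (n := 1) (funext hφ)
    rw [← Nat.card_eq_fintype_card, ← Nat.card_eq_fintype_card, cL] at m
    exact (Nat.modEq_zero_iff_dvd.1 (m.symm.trans (by decide : 20160 ≡ 0 [MOD 2])) :)
  obtain ⟨d, od, e⟩ := inv7 np ev (x := ⟨π X, hx⟩) (by rw [← Subgroup.orderOf_coe]; exact ox)
    fun j => absurd (j.trans (card_subgroup_dvd_card C)) (by rw [cL]; norm_num)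
  obtain ⟨D, hD⟩ := QuotientGroup.mk'_surjective _ d.1
  have hD' : π D = d := hD
  have dd : D * D ∈ center (SpecialLinearGroup (Fin 3) F) := (QuotientGroup.eq_one_iff _).1 (show π (D * D) = 1 by
    rw [map_mul, hD', ← Subgroup.coe_mul, ← sq, ← od, pow_orderOf_eq_one]; rfl)
  have lift : ∀ Y : SpecialLinearGroup (Fin 3) F, Y ^ 7 = 1 → π (D * X * D⁻¹) = π Y → D * X * D⁻¹ = Y := fun Y hY j => by
    obtain ⟨z, hz, e⟩ := (QuotientGroup.mk'_eq_mk' _).1 j
    obtain ⟨r, r3, hr⟩ := Matrix.SpecialLinearGroup.mem_center_iff.1 hz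
    have z3 : z ^ 3 = 1 := Subtype.ext (by
      change z.1 ^ 3 = 1
      rw [← hr, ← map_pow, show r ^ 3 = 1 from r3, map_one])
    have z7 : z ^ 7 = 1 := by
      rw [← e, Commute.mul_pow (mem_center_iff.1 hz _), conj_pow, h2] at hY
      simpa using hY
    have z1 : z = 1 := by rw [← z7, show 7 = 3 * 2 + 1 from rfl, pow_succ, pow_mul, z3]; simp
    rw [← e, z1, mul_one]
  have := key h1 h3 dd (e.imp (fun j => lift _ h2 (by
      rw [map_mul, map_mul, map_inv, hD']; exact congrArg Subtype.val j))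
    fun j => lift _ (by rw [inv_pow, h2, inv_one]) (by
      rw [map_mul, map_mul, map_inv, map_inv, hD']; exact congrArg Subtype.val j))
  have d1 : d = 1 := Subtype.ext (hD'.symm.trans ((QuotientGroup.eq_one_iff D).2 this))
  rw [d1, orderOf_one] at od
  omega

end CL.NP4
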