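/-
Project NP4: passing to the normaliser of `R`.
-/
import Cfsg.Agent.NP4.Defs

set_option autoImplicit false

namespace CL.NP4

open Cfsg Subgroup CL.Grp CL.Loc CL.Even CL.Sqf

universe u

theorem loc : LOC.{u} := by
  intro G _ _ p hp R hy hR hd ih
  have hle : R ≤ 𝒩(R) := le_normalizer
  refine ⟨⟨inferInstance, hR.comap_subtype, fun R' h1 h2 => ?_, fun x hx hpp => ?_⟩, fun h => ?_⟩
  · have hc : Nat.card R < Nat.card (R'.map (𝒩(R)).subtype) := by
      rw [card_map_subtype, ← card_subgroupOf_of_le hle]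
      exact lt_of_le_of_ne (card_le_of_le h2.le) fun e => h2.ne (eq_of_le_of_card_ge h2.le e.ge)
    have h3 := npc_iff.1 (ih _ (h1.map _) hc)
    have h4 : ∀ a ∈ 𝒞(R'), (a : G) ∈ 𝒞(R'.map (𝒩(R)).subtype) := by
      rintro a ha _ ⟨r, hr, rfl⟩
      exact congrArg Subtype.val (ha r hr)
    refine npc_iff.2 fun a ha b hb e1 e2 => ?_
    rw [← orderOf_coe] at e1 e2 ⊢
    exact h3 a (h4 a ha) b (h4 b hb) e1 e2
  · have hpp' : Pp p (x : G) := by
      obtain ⟨r, k, a, b, c⟩ := hpp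
      exact ⟨r, k, a, b, by rw [orderOf_coe, c]⟩
    have hC : R ≤ centralizer {(x : G)} := fun r hr =>
      mem_centralizer_singleton_iff.2 (congrArg Subtype.val (hx ⟨r, hle hr⟩ hr))
    obtain ⟨T, hT, hRT⟩ := exists_isSylowIn_ge hR hC
    have hne : R ≠ T := by
      rintro rfl
      apply hy x hpp'
      rw [← (centralizer {(x : G)}).card_mul_index, ← card_mul_relIndex hC, mul_comm (p ^ 2), mul_assoc] at hd
      exact (((Nat.Prime.coprime_iff_not_dvd hp.out).2 hT.not_dvd).pow_left 2).dvd_of_dvd_mul_left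
        (Nat.dvd_of_mul_dvd_mul_left Nat.card_pos hd)
    have hlt := lt_inf_normalizer_of_isPGroup hT.isPGroup (lt_of_le_of_ne hRT hne)
    refine ⟨T.subgroupOf 𝒩(R), hT.isPGroup.comap_subtype, ?_, fun t ht => ?_⟩
    · obtain ⟨t, ht, hn⟩ := SetLike.exists_of_lt hlt
      exact lt_of_le_of_ne (fun r hr => hRT hr) fun e => hn (show (⟨t, ht.2⟩ : 𝒩(R)) ∈ R.subgroupOf _ from e ▸ ht.1)
    · exact Subtype.ext (mem_centralizer_singleton_iff.1 (hT.le ht))
  · have h3 := npc_iff.1 h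
    have h4 : ∀ a (ha : a ∈ 𝒞(R)), (⟨a, cent_le_norm R ha⟩ : 𝒩(R)) ∈ 𝒞(R.subgroupOf 𝒩(R)) :=
      fun a ha r hr => Subtype.ext (ha r hr)
    refine npc_iff.2 fun a ha b hb e1 e2 => ?_
    have := h3 _ (h4 a ha) _ (h4 b hb) (by rwa [orderOf_mk]) (by rwa [orderOf_mk])
    rwa [← orderOf_coe] at this

end CL.NP4
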