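/-
Project NP4 (S4131): passing to the quotient by the `p'`-core, and the constrained step.
-/
import Cfsg.Agent.NP4.Defs

set_option autoImplicit false

namespace CL.NP4

open Cfsg Subgroup CL.Grp CL.Loc CL.Even CL.Sqf

universe u

theorem quo : QUO.{u} := by
  intro G _ _ p hp R h
  have hO := pPrimeCore_coprime p G
  have key : ∀ P : Subgroup G, IsPGroup p P → (𝒞(P)).map (QuotientGroup.mk' (pPrimeCore p G)) =
      𝒞(P.map (QuotientGroup.mk' (pPrimeCore p G))) := fun P hP => map_centralizer_quotient_of_coprime hO hP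
  have hs := QuotientGroup.mk'_surjective (pPrimeCore p G)
  have hk : ∀ g : G, QuotientGroup.mk' (pPrimeCore p G) g = 1 → g ∈ pPrimeCore p G := fun g hg =>
    (QuotientGroup.eq_one_iff g).1 hg
  generalize QuotientGroup.mk' (pPrimeCore p G) = f at key hs hk ⊢
  refine ⟨⟨h.nrm.map f hs, h.pg.map f, fun Q hQ hlt => ?_, fun xb hx hpp => ?_⟩, fun hn => ?_⟩
  · obtain ⟨P, hP, hRP⟩ := exists_isSylowIn_ge h.pg (map_le_iff_le_comap.1 hlt.le)
    have h1 := isSylowIn_map hP f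
    rw [map_comap_eq_self_of_surjective hs] at h1
    have h2 := isSylowIn_eq_of_isPGroup h1 hQ
    have h3 : R < P := lt_of_le_of_ne hRP fun e => hlt.ne (by rw [e, h2])
    have h4 := HasNormalPComplement.map (h.ih P hP.isPGroup h3) f
    rwa [key P hP.isPGroup, h2] at h4
  · rw [← key R h.pg] at hx
    obtain ⟨y, hy, rfl⟩ := hx
    obtain ⟨r, k, hr, hrp, ho⟩ := hpp
    obtain ⟨m, j, e1, e2⟩ := exists_lift f y hr ho
    obtain ⟨R', h1, h2, h3⟩ := h.br (y ^ m) (pow_mem hy m) ⟨r, j, hr, hrp, e2⟩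
    refine ⟨R'.map f, h1.map f, lt_of_le_of_ne (map_mono h2.le) fun e => h2.not_ge fun a ha => ?_, ?_⟩
    · obtain ⟨b, hb, e3⟩ : f a ∈ R.map f := e ▸ mem_map_of_mem f ha
      have h5 : b⁻¹ * a ∈ R' ⊓ pPrimeCore p G :=
        ⟨R'.mul_mem (R'.inv_mem (h2.le hb)) ha, hk _ (by rw [map_mul, map_inv, e3, inv_mul_cancel])⟩
      rw [inf_eq_bot_of_isPGroup_of_coprime h1 hO, mem_bot, inv_mul_eq_one] at h5
      exact h5 ▸ hb
    · rw [← key R' h1, ← e1]
      exact mem_map_of_mem f h3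
  · rw [← key R h.pg, npc_iff] at hn
    rw [npc_iff]
    intro a ha b hb h1 h2
    have h3 := hn (f a) (mem_map_of_mem f ha) (f b) (mem_map_of_mem f hb)
      (h1.coprime_dvd_left (orderOf_map_dvd f a)) (h2.coprime_dvd_left (orderOf_map_dvd f b))
    rw [← map_mul] at h3
    have h4 : (a * b) ^ orderOf (f (a * b)) ∈ pPrimeCore p G :=
      hk _ (by rw [map_pow, pow_orderOf_eq_one])
    have h5 : orderOf (a * b) ∣ orderOf (f (a * b)) * Nat.card (pPrimeCore p G) := by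
      rw [orderOf_dvd_iff_pow_eq_one, pow_mul, ← orderOf_dvd_iff_pow_eq_one]
      exact orderOf_dvd_natCard _ h4
    exact (Nat.Coprime.mul_left h3 hO).coprime_dvd_left h5

theorem step : STEP.{u} := by
  intro G _ _ p hp R h h0 hc
  refine hasNormalPComplement_of_isPGroup ?_
  by_contra hn
  have : ∃ r : ℕ, r.Prime ∧ r ∣ Nat.card 𝒞(R) ∧ r ≠ p := by
    by_contra h1
    push Not at h1
    exact hn (IsPGroup.iff_card.2 ⟨_, Nat.eq_prime_pow_of_unique_prime_dvd Nat.card_pos.ne'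
      (fun {d} a b => h1 d a b)⟩)
  obtain ⟨r, hr, hd, hrp⟩ := this
  have := Fact.mk hr
  obtain ⟨x, hx⟩ := exists_prime_orderOf_dvd_card' r hd
  have ho : orderOf (x : G) = r := by rw [Subgroup.orderOf_coe, hx]
  obtain ⟨R', h1, h2, h3⟩ := h.br x x.2 ⟨r, 1, hr, hrp, by rw [ho, pow_one]⟩
  have h4 := hasNormalPComplement_iff_coprime_pResidual.1 (h.ih R' h1 h2)
  have h5 : (x : G) ∈ (pResidual p 𝒞(R')).map (𝒞(R')).subtype :=
    ⟨⟨x, h3⟩, mem_pResidual_of_coprime (by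
      rw [← Subgroup.orderOf_coe, ho]; exact (Nat.coprime_primes hr hp.out).2 hrp), rfl⟩
  have h6 : (pResidual p 𝒞(R')).map (𝒞(R')).subtype ≤ pPrimeCoreOf p 𝒞(R') := by
    refine le_pPrimeCoreOf (map_subtype_le _) ?_ (by rwa [card_map_of_injective (subtype_injective _)])
    intro g hg
    refine mem_normalizer_fintype ?_
    rintro _ ⟨n, hn, rfl⟩
    exact ⟨⟨g, hg⟩ * n * ⟨g, hg⟩⁻¹, (pResidual_normal p _).conj_mem n hn _, rfl⟩
  have h7 := h6 h5
  rw [pPrimeCoreOf_centralizer hc h1, h0, bot_inf_eq, mem_bot] at h7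
  rw [h7, orderOf_one] at ho
  exact hr.ne_one ho.symm

end CL.NP4
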