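/-
Project NP4, step RED: reduction of the local configuration to the core lemma.
-/
import Cfsg.Agent.NP4.Defs
import Cfsg.Agent.Cit.CentBase

set_option autoImplicit false

namespace CL.NP4

open Cfsg Subgroup CL.Grp CL.Loc CL.Even CL.Sqf

universe u

namespace Red
variable {G : Type u} [Group G] [Finite G]

/-- an element of order prime to `p` in an image has a preimage of order prime to `p` -/
theorem lift {W : Type*} [Group W] (f : G →* W) {X : Subgroup G} {p : ℕ} (hp : p.Prime) {x : W}
    (hx : x ∈ X.map f) (ho : (orderOf x).Coprime p) : ∃ a ∈ X, (orderOf a).Coprime p ∧ f a = x := by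
  obtain ⟨y, hy, rfl⟩ := hx
  obtain ⟨k, hk⟩ := exists_pow_orderOf_coprime hp y
  obtain ⟨m, hm⟩ := exists_pow_eq_self_of_coprime (x := f y) (n := p ^ k) (Nat.Coprime.pow_left k ho.symm)
  refine ⟨(y ^ p ^ k) ^ m, X.pow_mem (X.pow_mem hy _) _, hk.coprime_dvd_left (orderOf_pow_dvd m), ?_⟩
  rw [map_pow, map_pow, hm]

/-- uniqueness of such lifts modulo a centralised `p`-group -/
theorem uniq {R : Subgroup G} {p : ℕ} (hR : IsPGroup p R) {a b : G} (ha : a ∈ 𝒞(R)) (h : a⁻¹ * b ∈ R)
    (h1 : (orderOf a).Coprime p) (h2 : (orderOf b).Coprime p) : a = b := by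
  have hc : Commute a⁻¹ b := by
    have h3 : a⁻¹ * b * a = a * (a⁻¹ * b) := comm_of_mem ha h
    have h4 : b * a = a * b := by
      calc b * a = a * (a⁻¹ * b * a) := by group
        _ = a * b := by rw [h3]; group
    exact (show Commute a b from h4.symm).inv_left
  have h5 : (orderOf (a⁻¹ * b)).Coprime p :=
    (Nat.Coprime.mul_left (by rwa [orderOf_inv]) h2).coprime_dvd_left hc.orderOf_mul_dvd_mul_orderOf
  exact inv_mul_eq_one.1 (CL.Even.eq_one_of_coprime_of_mem hR h5 h)

/-- a normal `p`-nilpotent subgroup lies in `O_p` if `O_{p'} = 1` -/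
theorem le_core {p : ℕ} [Fact p.Prime] (h0 : pPrimeCore p G = ⊥) {B : Subgroup G} [B.Normal]
    (h : HasNormalPComplement p B) : B ≤ pCore p G := by
  refine le_pCore (pResidual_eq_bot_iff.1 ?_)
  have h1 : (pResidual p B).map B.subtype ≤ pPrimeCore p G := by
    refine le_pPrimeCore ?_
    rw [card_map_of_injective B.subtype_injective]
    exact hasNormalPComplement_iff_coprime_pResidual.1 h
  rw [h0, le_bot_iff] at h1
  exact (map_eq_bot_iff_of_injective _ B.subtype_injective).1 h1

end Red

open Red in
theorem jRed : JRED.{u} := by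
  intro core G _ _ R L h0
  haveI := L.nrm
  have hle : R ≤ pCore 2 G := le_pCore L.pg
  rcases hle.lt_or_eq with hlt | heq
  · left
    exact isPConstrained_of_centralizer_pCore_le (centralizer_pCore_le_of_isPSolvable_centralizer h0
      (isPSolvable_of_isSolvable (CL.Cit.isSolvable_of_npc_two (L.ih _ (pCore_isPGroup 2 G) hlt))))
  right
  set f := QuotientGroup.mk' R with hf
  have fs : Function.Surjective f := QuotientGroup.mk'_surjective R
  have hker : ∀ g : G, f g = 1 ↔ g ∈ R := fun g => QuotientGroup.eq_one_iff g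
  haveI hXn : (𝒞(R)).Normal := inferInstance
  have hK : (𝒞(R)).map f = ⊥ := by
    refine core (G ⧸ R) _ (hXn.map f fs) ?_ ?_ ?_
    · intro hb hh
      obtain ⟨g, rfl⟩ := fs hb
      obtain ⟨m, j, e1, e2⟩ := exists_lift f g (k := 1) Nat.prime_two (by rw [hh, pow_one])
      set h := g ^ m with hm
      rw [← e1] at hh ⊢
      have hR : h ∉ R := fun h' => by
        rw [(hker h).2 h', orderOf_one] at hh
        exact absurd hh (by decide)
      have hp : IsPGroup 2 (R ⊔ zpowers h : Subgroup G) :=
        isPGroup_sup' L.pg (isPGroup_zpowers (k := j) (by rw [← e2, pow_orderOf_eq_one]))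
          (le_normalizer_of_normal)
      have hlt : R < R ⊔ zpowers h :=
        lt_of_le_of_ne le_sup_left fun e => hR (e ▸ mem_sup_right (mem_zpowers h))
      have hn := npc_iff.1 (L.ih _ hp hlt)
      have key : ∀ x ∈ ((𝒞(R)).map f ⊓ centralizer {f h} : Subgroup (G ⧸ R)), (orderOf x).Coprime 2 →
          ∃ a ∈ 𝒞(R ⊔ zpowers h), (orderOf a).Coprime 2 ∧ f a = x := by
        intro x hx ho
        obtain ⟨a, ha, h1, rfl⟩ := lift f Nat.prime_two hx.1 ho
        refine ⟨a, ?_, h1, rfl⟩
        have h2 : f a * f h = f h * f a := mem_centralizer_singleton_iff.1 hx.2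
        have h3 : a = h * a * h⁻¹ := by
          refine uniq L.pg ha ((hker _).1 ?_) h1 ?_
          · simp only [map_mul, map_inv]
            rw [← h2]; group
          · have := (MulAut.conj h).orderOf_eq a
            rw [MulAut.conj_apply] at this
            rwa [this]
        rw [cent_sup]
        refine ⟨ha, ?_⟩
        refine mem_centralizer_iff.2 ?_
        rintro _ ⟨n, rfl⟩
        have h4 : Commute h a := by
          show h * a = a * h
          calc h * a = h * a * h⁻¹ * h := by group
            _ = a * h := by rw [← h3]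
        exact (h4.zpow_left n).eq
      refine npc_iff.2 fun x hx y hy h1 h2 => ?_
      obtain ⟨a, ha, h3, rfl⟩ := key x hx h1
      obtain ⟨b, hb, h4, rfl⟩ := key y hy h2
      rw [← map_mul]
      exact (hn a ha b hb h3 h4).coprime_dvd_left (orderOf_map_dvd f _)
    · rintro _ ⟨y, hy, rfl⟩ ⟨r, k, hr, hr2, ho⟩
      obtain ⟨m, j, e1, e2⟩ := exists_lift f y hr ho
      obtain ⟨R', h1, h2, h3⟩ := L.br (y ^ m) (pow_mem hy m) ⟨r, j, hr, hr2, e2⟩
      obtain ⟨s, hs, -, hsR, hss⟩ := exists_up h1 h2.le h2.not_ge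
      refine ⟨f s, orderOf_eq_prime (by rw [pow_two, ← map_mul]; exact (hker _).2 hss)
        (fun e => hsR ((hker _).1 e)), ?_⟩
      rw [← e1, ← map_mul, ← map_mul, comm_of_mem h3 hs]
    · intro A hA hAK hAo
      have hnA : HasNormalPComplement 2 A := hAo.elim hasNormalPComplement_of_isPGroup
        fun h => hasNormalPComplement_of_coprime (Nat.coprime_two_right.2 h)
      set B : Subgroup G := 𝒞(R) ⊓ A.comap f with hB
      haveI : (A.comap f).Normal := hA.comap f
      haveI : B.Normal := by rw [hB]; infer_instance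
      let φ : B →* A := (f.comp B.subtype).codRestrict A fun b => b.2.2
      have hφ : φ.ker ≤ center B := by
        intro z hz
        have hzR : (z : G) ∈ R := (hker _).1 (congrArg Subtype.val (MonoidHom.mem_ker.1 hz))
        exact mem_center_iff.2 fun b => Subtype.ext (comm_of_mem b.2.1 hzR).symm
      have hBR : B ≤ R := heq ▸ le_core h0 (hasNormalPComplement_of_ker_le_center φ hφ hnA)
      refine eq_bot_iff.2 fun x hx => ?_
      obtain ⟨y, hy, rfl⟩ := hAK hx
      exact mem_bot.2 ((hker y).2 (hBR ⟨hy, hx⟩))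
  intro x hx
  exact (hker x).1 (mem_bot.1 (hK ▸ mem_map_of_mem f hx))

end CL.NP4
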